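import Cfsg.Agent.H776.P4.Stmts
import Cfsg.Agent.H802.FusEss

/-!
# S5210 [P4-NOOVER]: if no essential subgroup properly contains `Q` then `Aut_S(Q)` is TI
-/

set_option autoImplicit false

namespace Cfsg.Agent.H128.P4

open Cfsg Cfsg.FusionSystem Cfsg.Agent.H802
open Cfsg.Agent.H776.P4 (StNoOver)
open Cfsg.Agent.H756.PU (Inv NormAut TIAut)

universe u

section

variable {Ω : Type*} [Group Ω] {S : Subgroup Ω}

/-- `φ` is the restriction of an element of `Aut_F(S)` -/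
def IsRes (F : FusionSystem S) {P : Subgroup Ω} (φ : P →* Ω) : Prop :=
  ∃ α ∈ F.autGroup S, ∀ (x : P) (hx : (x : Ω) ∈ S), φ x = (α ⟨x, hx⟩ : S)

theorem inv_symm {F : FusionSystem S} [Finite S] {Q : Subgroup Ω} (h : Inv (F.autGroup S) Q) {α : MulAut S}
    (hα : α ∈ F.autGroup S) (x : S) : ((α x : S) : Ω) ∈ Q ↔ (x : Ω) ∈ Q := by
  constructor
  · intro hx
    have h1 := h.2 α⁻¹ ((F.autGroup S).inv_mem hα) (α x) hx
    have h2 : α⁻¹ (α x) = x := α.symm_apply_apply x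
    rwa [h2] at h1
  · intro hx
    exact h.2 α hα x hx

theorem lt_range_iff [Finite S] {F : FusionSystem S} {Q : Subgroup Ω} (h : Inv (F.autGroup S) Q) {P : Subgroup Ω}
    {φ : P →* Ω} (hP : P ≤ S) (hφ : IsRes F φ) : Q < φ.range ↔ Q < P := by
  obtain ⟨α, hα, hφα⟩ := hφ
  have hα' := (F.autGroup S).inv_mem hα
  have hinv : ∀ x : S, α (α⁻¹ x) = x := fun x => α.apply_symm_apply x
  have key : ∀ x : S, (x : Ω) ∈ P ↔ ((α x : S) : Ω) ∈ φ.range := by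
    intro x
    constructor
    · intro hx
      exact ⟨⟨x, hx⟩, hφα ⟨x, hx⟩ x.2⟩
    · rintro ⟨y, hy⟩
      rw [hφα y (hP y.2)] at hy
      have h1 : α ⟨y, hP y.2⟩ = α x := Subtype.ext hy
      have h2 := α.injective h1
      have h3 : (y : Ω) = x := congrArg Subtype.val h2
      rw [← h3]
      exact y.2
  have hr : φ.range ≤ S := by
    rintro _ ⟨y, rfl⟩
    rw [hφα y (hP y.2)]
    exact (α _).2
  simp only [SetLike.lt_iff_le_and_exists]
  constructor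
  · rintro ⟨h1, y, hy, hyQ⟩
    refine ⟨fun x hx => ?_, ((α⁻¹ ⟨y, hr hy⟩ : S) : Ω), ?_, ?_⟩
    · exact (key ⟨x, h.1 hx⟩).2 (h1 (h.2 α hα ⟨x, h.1 hx⟩ hx))
    · rw [key, hinv]
      exact hy
    · intro hc
      rw [inv_symm h hα'] at hc
      exact hyQ hc
  · rintro ⟨h1, y, hy, hyQ⟩
    refine ⟨fun x hx => ?_, ((α ⟨y, hP hy⟩ : S) : Ω), (key ⟨y, hP hy⟩).1 hy, ?_⟩
    · have h2 : ((α⁻¹ ⟨x, h.1 hx⟩ : S) : Ω) ∈ Q := h.2 _ hα' ⟨x, h.1 hx⟩ hx
      have h3 := (key (α⁻¹ ⟨x, h.1 hx⟩)).1 (h1 h2)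
      rw [hinv] at h3
      exact h3
    · intro hc
      rw [inv_symm h hα] at hc
      exact hyQ hc

/-- the maps of `F` which are restrictions of automorphisms of `S` as soon as their source or image properly contains `Q` -/
def aux [Finite S] (F : FusionSystem S) (Q : Subgroup Ω) (h : Inv (F.autGroup S) Q) : FusionSystem S where
  Hom P := {φ | φ ∈ F.Hom P ∧ (Q < P ∨ Q < φ.range → IsRes F φ)}
  le_of_mem hφ := F.le_of_mem hφ.1
  injective_of_mem hφ := F.injective_of_mem hφ.1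
  conj_mem := by
    intro P g hP hg
    refine ⟨F.conj_mem hP hg, fun _ => ?_⟩
    refine ⟨MulAut.conj ⟨g, hg⟩, ?_, fun x hx => rfl⟩
    rw [mem_autGroup_iff F le_rfl]
    exact mem_of_apply_eq (F.conj_mem le_rfl hg) fun x => rfl
  comp_mem := by
    rintro P R φ ψ ⟨hφ, hφ'⟩ ⟨hψ, hψ'⟩ hm
    refine ⟨F.comp_mem hφ hψ hm, fun hor => ?_⟩
    have hRS : R ≤ S := hom_le hψ
    have hPS : P ≤ S := hom_le hφ
    have hφR : φ.range ≤ R := by
      rintro _ ⟨x, rfl⟩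
      exact hm x
    have key : IsRes F φ → IsRes F ψ → IsRes F (ψ.comp (φ.codRestrict R hm)) := by
      rintro ⟨α, hα, hφα⟩ ⟨β, hβ, hψβ⟩
      refine ⟨β * α, (F.autGroup S).mul_mem hβ hα, fun x hx => ?_⟩
      show ψ ⟨φ x, hm x⟩ = ((β (α ⟨x, hx⟩) : S) : Ω)
      rw [hψβ ⟨φ x, hm x⟩ (hRS (hm x))]
      congr 2
      exact Subtype.ext (hφα x hx)
    rcases hor with hor | hor
    · have h1 := hφ' (Or.inl hor)
      have h2 : Q < φ.range := (lt_range_iff h hPS h1).2 hor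
      exact key h1 (hψ' (Or.inl (h2.trans_le hφR)))
    · have h0 : (ψ.comp (φ.codRestrict R hm)).range ≤ ψ.range := by
        rintro _ ⟨x, rfl⟩
        exact ⟨_, rfl⟩
      have h1 := hψ' (Or.inr (hor.trans_le h0))
      -- `ψ` restricted to the image of `φ`
      have h2 : IsRes F (ψ.comp (Subgroup.inclusion hφR)) := by
        obtain ⟨β, hβ, hψβ⟩ := h1
        exact ⟨β, hβ, fun x hx => hψβ _ hx⟩
      have h3 : (ψ.comp (Subgroup.inclusion hφR)).range = (ψ.comp (φ.codRestrict R hm)).range := by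
        ext z
        constructor
        · rintro ⟨⟨_, x, rfl⟩, rfl⟩
          exact ⟨x, rfl⟩
        · rintro ⟨x, rfl⟩
          exact ⟨⟨φ x, ⟨x, rfl⟩⟩, rfl⟩
      rw [← h3, lt_range_iff h (hφR.trans hRS) h2] at hor
      exact key (hφ' (Or.inr hor)) h1
  inv_mem := by
    rintro P φ ⟨hφ, hφ'⟩
    have hPS : P ≤ S := hom_le hφ
    obtain ⟨ψ, hψ, hψe⟩ := F.inv_mem hφ
    have hr : ψ.range = P := by
      ext z
      constructor
      · rintro ⟨⟨_, x, rfl⟩, rfl⟩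
        rw [hψe]
        exact x.2
      · intro hz
        exact ⟨⟨φ ⟨z, hz⟩, ⟨_, rfl⟩⟩, hψe ⟨z, hz⟩⟩
    refine ⟨ψ, ⟨hψ, fun hor => ?_⟩, hψe⟩
    rw [hr] at hor
    obtain ⟨α, hα, hφα⟩ := hφ' hor.symm
    refine ⟨α⁻¹, (F.autGroup S).inv_mem hα, ?_⟩
    rintro ⟨_, x, rfl⟩ hx
    rw [hψe]
    have h1 : (⟨φ x, hx⟩ : S) = α ⟨x, hPS x.2⟩ := Subtype.ext (hφα x _)
    have h2 : α⁻¹ (α ⟨x, hPS x.2⟩) = ⟨x, hPS x.2⟩ := α.symm_apply_apply _
    show (x : Ω) = ((α⁻¹ ⟨φ x, hx⟩ : S) : Ω)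
    rw [h1, h2]

/-- **Alperin**: if no essential subgroup properly contains `Q`, a map of `F` whose source properly contains `Q` is the
restriction of an element of `Aut_F(S)` -/
theorem isRes_of_lt [Finite S] {p : ℕ} [Fact p.Prime] {F : FusionSystem S} {Q : Subgroup Ω} (hS : IsPGroup p S)
    (hF : F.IsSaturated p) (hE : ∀ E, F.IsEssential p E → Q ≤ E → E = Q) (h : Inv (F.autGroup S) Q) {P : Subgroup Ω}
    {φ : P →* Ω} (hφ : φ ∈ F.Hom P) (hP : Q < P) : IsRes F φ := by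
  have hle := le_of_essential hS hF (aux F Q h) ?_ ?_ P
  · exact (hle hφ).2 (Or.inl hP)
  · intro α hα
    rw [mem_autGroup_iff _ le_rfl]
    exact ⟨(mem_autGroup_iff F le_rfl α).1 hα, fun _ => ⟨α, hα, fun x hx => rfl⟩⟩
  · intro E hEss _ α hα
    have hES : E ≤ S := hEss.1.1
    have hfinE : Finite E := finite_of_le hES
    have h1 := (mem_autGroup_iff F hES α).1 hα
    have h2 : (E.subtype.comp α.toMonoidHom).range = E := range_eq_of_mapsTo h1 fun x => (α x).2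
    rw [mem_autGroup_iff _ hES]
    refine ⟨h1, fun hor => ?_⟩
    rw [h2, or_self] at hor
    exact absurd (hE E hEss hor.le) hor.ne'

end

theorem stNoOver : StNoOver.{u} := by
  intro Ω _ S _ p _ F Q hS hF hQS hQn hC hE hI γ hγ x hx hxI hconj
  have hfn : F.IsFullyNormalized Q := by
    refine ⟨hQS, fun Q' _ => ?_⟩
    have h1 : normalizerIn S Q = S := inf_eq_left.2 hQn
    rw [h1]
    exact Subgroup.card_le_of_le inf_le_left
  obtain ⟨g, hg, hgx⟩ := (mem_autInducedBy_iff S Q x).1 hx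
  have hgQ : g ∉ Q := by
    intro hgQ
    exact hxI ⟨⟨g, hgQ⟩, MulEquiv.ext fun y => Subtype.ext (hgx y).symm⟩
  obtain ⟨R, hQR, hcard, ψ, hψ, hψe⟩ := extends_of_conj_mem (isReceptive_of_isFullyNormalized hS hF hfn) hγ hg hgQ hgx hconj
  have hlt : Q < R := lt_of_le_of_ne hQR (by
    rintro rfl
    exact lt_irrefl _ hcard)
  obtain ⟨α, hα, hαe⟩ := isRes_of_lt hS hF hE hI hψ hlt
  have hγα : ∀ q : Q, ((γ q : Q) : Ω) = ((α ⟨q, hQS q.2⟩ : S) : Ω) := by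
    intro q
    rw [← hψe q]
    exact hαe _ _
  intro y hy
  obtain ⟨s, hs, hsy⟩ := (mem_autInducedBy_iff S Q y).1 hy
  rw [mem_autInducedBy_iff]
  refine ⟨((α ⟨s, hs⟩ : S) : Ω), (α _).2, fun q => ?_⟩
  rw [MulAut.mul_apply, MulAut.mul_apply, hγα]
  have h1 : (⟨((y (γ⁻¹ q) : Q) : Ω), hQS (y (γ⁻¹ q)).2⟩ : S) = ⟨s, hs⟩ * ⟨((γ⁻¹ q : Q) : Ω), hQS (γ⁻¹ q).2⟩ * ⟨s, hs⟩⁻¹ :=
    Subtype.ext (hsy _)
  rw [h1, map_mul, map_mul, map_inv]
  have h2 : ((α ⟨((γ⁻¹ q : Q) : Ω), hQS (γ⁻¹ q).2⟩ : S) : Ω) = q := by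
    rw [← hγα]
    have : γ (γ⁻¹ q) = q := γ.apply_symm_apply q
    rw [this]
  show _ * ((α ⟨((γ⁻¹ q : Q) : Ω), hQS (γ⁻¹ q).2⟩ : S) : Ω) * _ = _
  rw [h2]
  rfl

end Cfsg.Agent.H128.P4
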