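import Cfsg.Agent.H756.PU.AsmGen
import Cfsg.Agent.H776.P4.Stmts

/-!
# S5210 [P4-PAR]: the structure `ParP` from a saturated system
-/

set_option autoImplicit false

namespace Cfsg.Agent.H128.P4

open Cfsg Cfsg.FusionSystem Cfsg.Agent.H776.P4
open Cfsg.Agent.H756.PU (HypK Inv NormAut TIAut AF res_mem ext_mem syl_of_normal mem_range_sup top_le_normalizer_of_char)

universe u

theorem stPar (hG : StGrp.{u}) (hTI : StTI.{u}) : StPar.{u} := by
  intro K _ _ p n _ hK F D Q hF hQ hD hDc hAF hti hnn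
  have hfin : Finite (PG K) := by
    apply Nat.finite_of_card_ne_zero
    rw [(hG hK).1]
    exact pow_ne_zero _ (pow_ne_zero _ hK.pp.ne_zero)
  have hS : IsPGroup p (⊤ : Subgroup (PG K)) := (hG hK).2.1
  obtain ⟨-, -, hchar⟩ := (hTI hK).2 Q hQ
  have hn := top_le_normalizer_of_char hchar
  refine ⟨H802.autInducedBy_le_autGroup F le_top, syl_of_normal hS hF hn, hti, hnn, hD, hDc, ?_, ?_⟩
  · intro d hd γ hγ
    have h1 : d ∈ AF F := by
      rw [hAF]
      exact Subgroup.mem_sup_right hd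
    exact res_mem h1 hγ
  · intro γ hγ hN
    obtain ⟨β, hβ, he⟩ := ext_mem hS hF hn hγ hN
    rw [hAF] at hβ
    obtain ⟨x, d, hd, rfl⟩ := mem_range_sup hβ
    exact ⟨x, d, hd, fun e => he e⟩

end Cfsg.Agent.H128.P4
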